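import Cfsg.Agent.H2.Two2
import Cfsg.Agent.H2.Alperin
import Cfsg.Agent.H8.Cls

namespace Cfsg.Agent.L

open Cfsg.Agent.H2 Subgroup

variable {G : Type*} [Group G] [Finite G]

theorem exists_dvd_of_not_pNil {p : ℕ} [Fact p.Prime] (P : Sylow p G)
    (h : ¬ PNil p (⊤ : Subgroup G)) :
    ∃ q i : ℕ, q.Prime ∧ q ≠ p ∧ q ∣ Nat.card G ∧ 1 ≤ i ∧ p ^ i ∣ Nat.card P ∧ q ∣ p ^ i - 1 := by
  obtain ⟨U, R, q, hq, hqp, -, hU, -, hR, -, hn, hc⟩ := exists_of_not_pNil h
  haveI := Fact.mk hq
  obtain ⟨i, hi, h1, h2⟩ := Reg.dvd_of_not_cent hqp hU hR hn hc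
  refine ⟨q, i, hq, hqp, ?_, hi, ?_, h2⟩
  · have hb : R ≠ ⊥ := by rintro rfl; exact hc bot_le
    obtain ⟨k, hk⟩ := hR.exists_card_eq
    have hk0 : k ≠ 0 := by
      rintro rfl; exact hb (card_eq_one.1 (by simpa using hk))
    exact (dvd_pow_self q hk0).trans (hk ▸ card_subgroup_dvd_card R)
  · exact (h1.trans (relIndex_dvd_card _ _)).trans ((sylIn_top P).card_dvd hU le_top)

theorem not_pNil_of_simple [IsSimpleGroup G] {p : ℕ} [Fact p.Prime] (hp : p ∣ Nat.card G)
    (hG : ∃ x y : G, x * y ≠ y * x) : ¬ PNil p (⊤ : Subgroup G) := by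
  intro h
  have hc := pNil_iff_card.1 h
  rcases (inferInstance : (resOf p (⊤ : Subgroup G)).Normal).eq_bot_or_eq_top with h0 | h0
  · obtain ⟨P⟩ : Nonempty (Sylow p G) := inferInstance
    have h1 := (sylIn_top P).resOf_sup
    rw [h0, bot_sup_eq] at h1
    have hP : IsPGroup p G := by
      have := P.isPGroup'
      rw [h1] at this
      exact this.of_equiv topEquiv
    haveI : Nontrivial (center G) := hP.center_nontrivial
    rcases (inferInstance : (center G).Normal).eq_bot_or_eq_top with h2 | h2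
    · exact ((center G).nontrivial_iff_ne_bot.1 this) h2
    · obtain ⟨x, y, hxy⟩ := hG
      exact hxy (mem_center_iff.1 (h2 ▸ mem_top y) x)
  · rw [h0, card_top] at hc
    exact (Fact.out : p.Prime).one_lt.ne' (Nat.eq_one_of_dvd_coprimes hc hp dvd_rfl)

/-- the involutions of a homocyclic 2-group of rank two -/
theorem exists_omega_k4 {P : Subgroup G} {m : ℕ} (hm : 1 ≤ m)
    (e : P ≃* Multiplicative (ZMod (2 ^ m) × ZMod (2 ^ m))) :
    ∃ (V : Subgroup G) (a b : G), K4 V a b ∧ ∀ x, x ∈ V ↔ x ∈ P ∧ x * x = 1 := by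
  obtain ⟨k, rfl⟩ : ∃ k, m = k + 1 := ⟨m - 1, by omega⟩
  have hh : ∀ y : ZMod (2 ^ (k + 1)), y + y = 0 ↔ y = 0 ∨ y = ((2 ^ k : ℕ) : ZMod (2 ^ (k + 1))) := by
    intro y
    constructor
    · intro hy
      have : -y = y := neg_eq_iff_add_eq_zero.2 hy
      rcases (ZMod.neg_eq_self_iff y).1 this with h | h
      · exact Or.inl h
      · right
        have h2 : y.val = 2 ^ k := by have := pow_succ 2 k; omega
        rw [← h2, ZMod.natCast_zmod_val]
    · rintro (rfl | rfl)
      · simp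
      · rw [← Nat.cast_add, ZMod.natCast_eq_zero_iff]; exact ⟨1, by ring⟩
  set c : ZMod (2 ^ (k + 1)) := ((2 ^ k : ℕ) : ZMod (2 ^ (k + 1))) with hc
  have c0 : c ≠ 0 := by
    rw [hc, Ne, ZMod.natCast_eq_zero_iff]
    intro h
    have := Nat.le_of_dvd (by positivity) h
    have h2 : 0 < 2 ^ k := by positivity
    rw [pow_succ] at this; omega
  have cc : c + c = 0 := (hh c).2 (Or.inr rfl)
  set a : P := e.symm (Multiplicative.ofAdd (c, 0)) with ha
  set b : P := e.symm (Multiplicative.ofAdd (0, c)) with hb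
  have ea : e a = Multiplicative.ofAdd (c, 0) := by simp [ha]
  have eb : e b = Multiplicative.ofAdd (0, c) := by simp [hb]
  have hK : K4 (zpowers (a : G) ⊔ zpowers (b : G)) a b := by
    refine k4_closure ?_ ?_ ?_ ?_ ?_ ?_
    · have : a * a = 1 := e.injective (by
        rw [map_mul, ea, map_one, ← ofAdd_add]; simp [cc])
      exact congrArg Subtype.val this
    · have : b * b = 1 := e.injective (by
        rw [map_mul, eb, map_one, ← ofAdd_add]; simp [cc])
      exact congrArg Subtype.val this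
    · intro h
      have : a = 1 := Subtype.ext h
      rw [this, map_one] at ea
      exact c0 (congrArg (fun z => (Multiplicative.toAdd z).1) ea).symm
    · intro h
      have : b = 1 := Subtype.ext h
      rw [this, map_one] at eb
      exact c0 (congrArg (fun z => (Multiplicative.toAdd z).2) eb).symm
    · intro h
      have : a = b := Subtype.ext h
      rw [this, eb] at ea
      exact c0 (congrArg (fun z => (Multiplicative.toAdd z).2) ea)
    · have : a * b = b * a := e.injective (by rw [map_mul, map_mul, mul_comm])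
      exact congrArg Subtype.val this
  refine ⟨_, a, b, hK, fun x => ⟨fun hx => ⟨hK.le a.2 b.2 hx, hK.mul_self hx⟩, fun ⟨hx, h2⟩ => ?_⟩⟩
  have h3 : e ⟨x, hx⟩ * e ⟨x, hx⟩ = 1 := by
    rw [← map_mul, ← map_one e]; congr 1; exact Subtype.ext h2
  have h4 := congrArg Multiplicative.toAdd h3
  rw [toAdd_mul, toAdd_one] at h4
  have h5 := (hh _).1 (congrArg Prod.fst h4)
  have h6 := (hh _).1 (congrArg Prod.snd h4)
  rw [hK.mem]
  have key : ∀ y : P, Multiplicative.toAdd (e ⟨x, hx⟩) = Multiplicative.toAdd (e y) → x = y :=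
    fun y hy => congrArg Subtype.val (e.injective (Multiplicative.toAdd.injective hy))
  rcases h5 with h5 | h5 <;> rcases h6 with h6 | h6
  · left; exact key 1 (by rw [map_one]; exact Prod.ext h5 h6)
  · right; right; left; exact key b (by rw [eb]; exact Prod.ext h5 h6)
  · right; left; exact key a (by rw [ea]; exact Prod.ext h5 h6)
  · right; right; right
    exact key (a * b) (by rw [map_mul, ea, eb]; exact Prod.ext (by simpa using h5) (by simpa using h6))

/-- A non-2-nilpotent group with abelian Sylow 2-subgroup whose involutions form a four-group -/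
theorem oddN_of_not_pNil (P : Sylow 2 G) [IsMulCommutative (P : Subgroup G)] {V : Subgroup G}
    (hV : ∀ x, x ∈ V ↔ x ∈ (P : Subgroup G) ∧ x * x = 1) (h : ¬ PNil 2 (⊤ : Subgroup G)) :
    OddN V := by
  by_contra hn
  refine h ((sylIn_top P).pNil_of_normalizer_le ?_)
  rw [top_inf_eq]
  have hS : SylIn 2 (P : Subgroup G) (normalizer ((P : Subgroup G) : Set G)) :=
    sylIn_of_le P le_normalizer
  rw [← hS.resOf_sup, sup_le_iff]
  refine ⟨resOf_le_iff.2 fun g hg ho => ?_, le_centralizer_self_of_comm⟩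
  have hA := oddAut_conj hg ho
  have hgV : g ∈ normalizer (V : Set G) := by
    refine mem_normalizer_of_cj_le (cj_le_iff_forall.2 fun x hx => ?_)
    obtain ⟨h1, h2⟩ := (hV x).1 hx
    refine (hV _).2 ⟨hA.mem x h1, ?_⟩
    calc g * x * g⁻¹ * (g * x * g⁻¹) = g * (x * x) * g⁻¹ := by group
      _ = 1 := by rw [h2]; group
  have hgc : g ∈ centralizer (V : Set G) := by
    by_contra hc; exact hn ⟨g, hgV, ho, hc⟩
  rw [mem_centralizer_iff]
  intro x hx
  have := hA.fix_of_omega P.isPGroup'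
    (fun x hx y hy => (le_centralizer_self_of_comm (P := (P : Subgroup G)) hy x hx))
    (fun x hx h2 => conj_eq_of_mem_centralizer hgc ((hV x).2 ⟨hx, h2⟩)) hx
  calc x * g = (g * x * g⁻¹) * g := by rw [this]
    _ = g * x := by group

theorem isConj_of_not_pNil (P : Sylow 2 G) [IsMulCommutative (P : Subgroup G)] {V : Subgroup G}
    (hK : IsKleinFour V)
    (hV : ∀ x, x ∈ V ↔ x ∈ (P : Subgroup G) ∧ x * x = 1) (h : ¬ PNil 2 (⊤ : Subgroup G))
    {s t : G} (hs : orderOf s = 2) (ht : orderOf t = 2) : IsConj s t := by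
  have hO := oddN_of_not_pNil P hV h
  obtain ⟨s', h1, h2, h3⟩ := (sylIn_top P).exists_isConj (k := 1) (t := s) (by simpa using hs)
  obtain ⟨t', h4, h5, h6⟩ := (sylIn_top P).exists_isConj (k := 1) (t := t) (by simpa using ht)
  rw [pow_one] at h2 h5
  have m : ∀ x ∈ (P : Subgroup G), orderOf x = 2 → x ∈ V := fun x hx ho =>
    (hV x).2 ⟨hx, by rw [← pow_two, ← ho, pow_orderOf_eq_one]⟩
  have n : ∀ x : G, orderOf x = 2 → x ≠ 1 := by
    rintro x hx rfl; simp at hx
  exact h3.symm.trans ((hO.isConj hK (m _ h1 h2) (m _ h4 h5) (n _ h2) (n _ h5)).trans h6)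

theorem card_invClasses_one (P : Sylow 2 G) (hP : IsKleinFour (P : Subgroup G))
    (h : ¬ PNil 2 (⊤ : Subgroup G)) :
    Nat.card {C : ConjClasses G // ∃ t : G, orderOf t = 2 ∧ ConjClasses.mk t = C} = 1 := by
  obtain ⟨a, b, hK⟩ := exists_k4 hP
  haveI : IsMulCommutative (P : Subgroup G) :=
    ⟨⟨fun x y => Subtype.ext (hK.commute x.2 y.2)⟩⟩
  have ha : orderOf a = 2 := orderOf_eq_prime (by rw [pow_two, hK.a2]) hK.a1
  rw [Nat.card_eq_one_iff_exists]
  refine ⟨⟨ConjClasses.mk a, a, ha, rfl⟩, ?_⟩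
  rintro ⟨_, t, ht, rfl⟩
  apply Subtype.ext
  exact ConjClasses.mk_eq_mk_iff_isConj.2 (isConj_of_not_pNil P hP
    (fun x => ⟨fun hx => ⟨hx, hK.mul_self hx⟩, fun hx => hx.1⟩) h ht ha)

theorem card_invClasses_three (P : Sylow 2 G) (hP : IsKleinFour (P : Subgroup G))
    (h : PNil 2 (⊤ : Subgroup G)) :
    Nat.card {C : ConjClasses G // ∃ t : G, orderOf t = 2 ∧ ConjClasses.mk t = C} = 3 := by
  classical
  obtain ⟨a, b, hK⟩ := exists_k4 hP
  have key : ∀ x ∈ (P : Subgroup G), ∀ y ∈ (P : Subgroup G),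
      ConjClasses.mk x = ConjClasses.mk y → x = y := by
    intro x hx y hy hxy
    obtain ⟨u, hu⟩ := isConj_iff.1 (ConjClasses.mk_eq_mk_iff_isConj.1 hxy)
    obtain ⟨v, hv, h2⟩ := h.control (sylIn_top P) (mem_top u)
    have := h2 x hx (hu ▸ hy)
    rw [hu, (hK.commute hv hx).eq, mul_inv_cancel_right] at this
    exact this
  have hs : {C : ConjClasses G | ∃ t : G, orderOf t = 2 ∧ ConjClasses.mk t = C} =
      ({ConjClasses.mk a, ConjClasses.mk b, ConjClasses.mk (a * b)} : Set _) := by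
    ext C
    simp only [Set.mem_setOf_eq, Set.mem_insert_iff, Set.mem_singleton_iff]
    constructor
    · rintro ⟨t, ht, rfl⟩
      obtain ⟨s, h1, h2, h3⟩ := (sylIn_top P).exists_isConj (k := 1) (t := t) (by simpa using ht)
      rw [← ConjClasses.mk_eq_mk_iff_isConj.2 h3]
      rcases (hK.mem s).1 h1 with rfl | rfl | rfl | rfl
      · simp at h2
      · exact Or.inl rfl
      · exact Or.inr (Or.inl rfl)
      · exact Or.inr (Or.inr rfl)
    · rintro (rfl | rfl | rfl)
      · exact ⟨a, orderOf_eq_prime (by rw [pow_two, hK.a2]) hK.a1, rfl⟩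
      · exact ⟨b, orderOf_eq_prime (by rw [pow_two, hK.b2]) hK.b1, rfl⟩
      · exact ⟨a * b, orderOf_eq_prime (by rw [pow_two, hK.mul_self hK.ab_mem]) hK.ab1, rfl⟩
  have : Nat.card {C : ConjClasses G // ∃ t : G, orderOf t = 2 ∧ ConjClasses.mk t = C} =
      Set.ncard {C : ConjClasses G | ∃ t : G, orderOf t = 2 ∧ ConjClasses.mk t = C} := rfl
  rw [this, hs]
  refine Set.ncard_eq_three.2 ⟨_, _, _, ?_, ?_, ?_, rfl⟩
  · exact fun e => hK.ne (key _ hK.a_mem _ hK.b_mem e)
  · exact fun e => hK.ab_ne_a (key _ hK.a_mem _ hK.ab_mem e).symm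
  · exact fun e => hK.ab_ne_b (key _ hK.b_mem _ hK.ab_mem e).symm

/-- abelian Hall subgroups of the same order inside `M` are conjugate in `M` -/
theorem exists_cj_eq_of_comm_hall {H K M : Subgroup G} [IsMulCommutative H] [IsMulCommutative K]
    (hH : H ≤ M) (hK : K ≤ M) (hc : Nat.card K = Nat.card H)
    (hHall : (Nat.card H).Coprime (H.relIndex M)) : ∃ c ∈ M, cj c K = H := by
  obtain ⟨c, hcM, hmax⟩ := Set.exists_max_image (M : Set G) (fun c => Nat.card ↥(H ⊓ cj c K))
    (Set.toFinite _) ⟨1, M.one_mem⟩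
  refine ⟨c, hcM, ?_⟩
  have hK' : cj c K ≤ M := cj_le_of_le hK hcM
  have hcK : Nat.card (cj c K) = Nat.card H := by rw [card_cj, hc]
  have hcomm : ∀ x ∈ cj c K, ∀ y ∈ cj c K, x * y = y * x := by
    intro x hx y hy
    have := le_centralizer_self_of_comm (P := K) (mem_cj.1 hy) _ (mem_cj.1 hx)
    calc x * y = c * ((c⁻¹ * x * c) * (c⁻¹ * y * c)) * c⁻¹ := by group
      _ = y * x := by rw [this]; group
  have hD : H ⊓ cj c K = H := by
    refine eq_of_forall_not_dvd_relIndex inf_le_left fun r hr hd => ?_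
    haveI := Fact.mk hr
    have hrH : r ∣ Nat.card H := hd.trans (relIndex_dvd_card _ _)
    have hi : ¬ r ∣ H.relIndex M := fun h =>
      hr.one_lt.ne' (Nat.eq_one_of_dvd_coprimes hHall hrH h)
    have hi' : ¬ r ∣ (cj c K).relIndex M := by
      have e1 := card_eq_relIndex_mul hH
      have e2 := card_eq_relIndex_mul hK'
      rw [hcK, e1] at e2
      rwa [← Nat.eq_of_mul_eq_mul_right Nat.card_pos e2]
    obtain ⟨A, hA⟩ := exists_sylIn r H
    obtain ⟨B, hB⟩ := exists_sylIn r (cj c K)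
    have hHC : H ≤ M ⊓ centralizer ((H ⊓ cj c K : Subgroup G) : Set G) :=
      le_inf hH (le_centralizer_self_of_comm.trans (centralizer_le inf_le_left))
    have hKC : cj c K ≤ M ⊓ centralizer ((H ⊓ cj c K : Subgroup G) : Set G) :=
      le_inf hK' fun y hy x hx => hcomm x hx.2 y hy
    have hA' := (hA.trans_of_not_dvd hH hi).mono (hA.le.trans hHC) inf_le_left
    have hB' := (hB.trans_of_not_dvd hK' hi').mono (hB.le.trans hKC) inf_le_left
    obtain ⟨d, hd', e⟩ := hB'.exists_cj_eq hA'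
    have h1 : H ⊓ cj c K ≤ H ⊓ cj (d * c) K := by
      intro x hx
      refine ⟨hx.1, ?_⟩
      rw [cj_mul]
      have := conj_mem_cj d hx.2
      rwa [conj_eq_of_mem_centralizer hd'.2 hx] at this
    have h2 : A ≤ H ⊓ cj (d * c) K := by
      refine le_inf hA.le ?_
      rw [cj_mul, ← e]; exact cj_mono d hB.le
    have h3 : H ⊓ cj c K = H ⊓ cj (d * c) K :=
      eq_of_le_of_card_ge h1 (hmax _ (M.mul_mem hd'.1 hcM))
    rw [← h3] at h2
    exact hA.not_dvd_relIndex_of_le h2 hd
  exact (eq_of_le_of_card_ge (inf_eq_left.1 hD) hcK.le).symm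

end Cfsg.Agent.L
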